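import Cfsg.Agent.H568.EP.Big
import Cfsg.Agent.KFacts.RgdFiltClass

/-!
# S3499: the root group datum of the simple groups with a `Model` (helper419)
-/

set_option autoImplicit false

namespace Cfsg.Agent.H419.EP

open Cfsg Cfsg.Agent.H568.EP Cfsg.Agent.KFacts.RgdFilt Cfsg.Agent.KFacts.RgdFiltClass Cfsg.Agent.LieClassical.OrthCore
open scoped MatrixGroups

section
variable {Q : Type} [Group Q] {F : Type} [Field F] [Fintype F]

theorem hasFilt_lin {n : ℕ} (hn : 2 ≤ n) (m : Model Q (Cfsg.Geo.specialLinear (Fin n) F)) :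
    HasFilt (ringChar F) Q := by
  haveI : Fact (ringChar F).Prime := ⟨CharP.char_is_prime F _⟩
  obtain ⟨m'⟩ := H117.EP.model_PSL (F := F) hn
  obtain ⟨e⟩ := equiv_of_models m m'
  obtain ⟨k, rfl⟩ : ∃ k, n = k + 1 := ⟨n - 1, by omega⟩
  haveI : Finite (Matrix.ProjectiveSpecialLinearGroup (Fin (k + 1)) F) := Quotient.finite _
  exact (hasFilt_PSL (F := F) (p := ringChar F) k).of_equiv e.symm

theorem hasFilt_sp {k : ℕ} (hk : 1 ≤ k) (m : Model Q (Cfsg.spGL k F)) : HasFilt (ringChar F) Q := by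
  haveI : Fact (ringChar F).Prime := ⟨CharP.char_is_prime F _⟩
  obtain ⟨e⟩ := equiv_of_models m (H729.EPM.modelPSp k F)
  haveI : Finite (PSp k F) := Quotient.finite _
  exact (hasFilt_PSp (F := F) (p := ringChar F) hk).of_equiv e.symm

theorem hasFilt_uni {n q : ℕ} (hF : Fintype.card F = q ^ 2) (hn : 3 ≤ n)
    (m : Model Q (Cfsg.GU n F q ⊓ Cfsg.Geo.specialLinear (Fin n) F)) : HasFilt (ringChar F) Q := by
  haveI : Fact (ringChar F).Prime := ⟨CharP.char_is_prime F _⟩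
  obtain ⟨m'⟩ := H117.EP.model_PSU (F := F) hF hn
  obtain ⟨e⟩ := equiv_of_models m m'
  haveI : Finite (PSU n F q) := Quotient.finite _
  exact (hasFilt_PSU (F := F) (p := ringChar F) hF hn).of_equiv e.symm

theorem hasFilt_orth {ι : Type} [Fintype ι] [DecidableEq ι] {Qf : (ι → F) → F}
    (hQ : Cfsg.Geo.IsNondegenerateQuadraticForm Qf) (hn : 7 ≤ Fintype.card ι) (m : Model Q (Cfsg.Geo.omegaGL Qf)) :
    HasFilt (ringChar F) Q := by
  haveI : Fact (ringChar F).Prime := ⟨CharP.char_is_prime F _⟩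
  obtain ⟨m'⟩ := H775.EP.model_omega hQ (by omega)
  obtain ⟨e⟩ := equiv_of_models m m'
  obtain ⟨Q', hQ', hnd⟩ := H883.Bridge.exists_quadraticForm hQ
  subst hQ'
  rcases GenOrth.normal_form (Fintype.card ι) hnd (by rw [Module.finrank_fintype_fun_eq_card]) with ⟨k, hk, hs⟩ | ⟨k, hk, hs⟩ |
    ⟨k, hk, a, b, hab, hs⟩
  · have h2 := two_ne_of_sim hnd hs
    obtain ⟨c, hc, j, hj⟩ := hs
    obtain ⟨f⟩ := H173.OI.pomega_similar (Q := Cfsg.quadFormOdd k F) (Q' := ⇑Q') hc j hj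
    haveI : Finite (Cfsg.POmega F (Cfsg.quadFormOdd k F)) := Quotient.finite _
    exact (hasFilt_PO_odd (F := F) (p := ringChar F) h2 (by omega)).of_equiv (e.trans f.symm).symm
  · obtain ⟨c, hc, j, hj⟩ := hs
    obtain ⟨f⟩ := H173.OI.pomega_similar (Q := Cfsg.quadFormPlus k F) (Q' := ⇑Q') hc j hj
    obtain ⟨n, rfl⟩ : ∃ n, k = n + 3 := ⟨k - 3, by omega⟩
    haveI : Finite (Cfsg.POmega F (Cfsg.quadFormPlus (n + 3) F)) := Quotient.finite _
    exact (hasFilt_PO_plus (F := F) (p := ringChar F) n).of_equiv (e.trans f.symm).symm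
  · obtain ⟨c, hc, j, hj⟩ := hs
    obtain ⟨f⟩ := H173.OI.pomega_similar (Q := Cfsg.quadFormMinus k F a b) (Q' := ⇑Q') hc j hj
    haveI : Finite (Cfsg.POmega F (Cfsg.quadFormMinus k F a b)) := Quotient.finite _
    exact (hasFilt_PO_minus (F := F) (p := ringChar F) a b hab (by omega)).of_equiv (e.trans f.symm).symm

end

end Cfsg.Agent.H419.EP
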