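import Cfsg.Agent.H419.EP.Big
import Cfsg.Agent.H419.EP.Filt
import Cfsg.Agent.H921.UnitBase
import Cfsg.Agent.H924.SympForm

/-!
# S3499: reduction of the residual targets to dimension at most 12 and `BigTarget` (helper419)
-/

set_option autoImplicit false

namespace Cfsg.Agent.H419.EP

open Subgroup Cfsg.Agent.H284
open scoped MatrixGroups
open Cfsg.Agent.LieClassical.HermBasic

theorem isUnitaryForm_herm {F : Type*} [Field F] [Fintype F] {n q : ℕ} (hF : Fintype.card F = q ^ 2) :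
    Cfsg.Geo.IsUnitaryForm (conj hF) (Cfsg.hermForm n F q) where
  ne_refl := Cfsg.Agent.H921.conj_ne_refl hF
  involutive := fun a => pow_q_pow_q hF a
  add_left := fun x y v => herm_add_left x y v
  smul_left := fun c x v => herm_smul_left c x v
  herm := fun v w => herm_swap hF w v
  nondegenerate := by
    intro v hv
    obtain ⟨x, hx⟩ := exists_herm_ne_zero hF hv
    refine ⟨⟨x, fun h => hx (herm_eq_zero_swap hF h)⟩, ⟨x, hx⟩⟩

theorem pslRes_of (h12 : PslRes12) (ho : OrdLin) (hb : BigTarget) : PslRes := by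
  intro Q _ _ hs A Γ h F _ _ n m h3 e1 e2 e3 hres
  rcases Nat.lt_or_ge 12 n with hn | hn
  · obtain ⟨P, hP, nq, ns, nu⟩ := hres
    refine hb (Q := Q) (A := A) (Γ := Γ) (S := Cfsg.Geo.specialLinear (Fin n) F) (P := P)
      ⟨m, hs, h, by rw [Fintype.card_fin]; exact hn, hP, BigKind.lin rfl ?_ nq ns nu, hasFilt_lin (by omega) m⟩
    rw [Fintype.card_fin]
    exact ho m hn
  · exact h12 hs h m h3 hn e1 e2 e3 hres

theorem pspRes_of (h12 : PspRes12) (ho : OrdSp) (hb : BigTarget) : PspRes := by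
  intro Q _ _ hs A Γ h F _ _ k m h2 h3 hres
  rcases Nat.lt_or_ge 6 k with hk | hk
  · obtain ⟨P, hP, nq, nu⟩ := hres
    have hc : Fintype.card (Fin k ⊕ Fin k) = 2 * k := by
      rw [Fintype.card_sum, Fintype.card_fin]; omega
    refine hb (Q := Q) (A := A) (Γ := Γ) (S := Cfsg.spGL k F) (P := P)
      ⟨m, hs, h, by rw [hc]; omega, hP,
        BigKind.sp (Cfsg.sympForm k F) Cfsg.Agent.H924.isSymplecticForm_sympForm ?_ h3 ?_ nq nu,
        hasFilt_sp (by omega) m⟩
    · rintro _ ⟨g, hg, rfl⟩ u v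
      exact hg u v
    · rw [hc]
      have h1 : 2 * k * (2 * k + 1) / 2 = k * (2 * k + 1) := by
        rw [mul_assoc, Nat.mul_div_cancel_left _ (by norm_num)]
      rw [h1]
      exact ho m hk
  · exact h12 hs h m h2 hk h3 hres

theorem psuRes_of (h12 : PsuRes12) (ho : OrdUni) (hb : BigTarget) : PsuRes := by
  intro Q _ _ hs A Γ h F _ _ n q m hF h3 e1 e2 hres
  rcases Nat.lt_or_ge 12 n with hn | hn
  · obtain ⟨P, hP, nq, ns⟩ := hres
    refine hb (Q := Q) (A := A) (Γ := Γ) (S := Cfsg.GU n F q ⊓ Cfsg.Geo.specialLinear (Fin n) F) (P := P)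
      ⟨m, hs, h, by rw [Fintype.card_fin]; exact hn, hP,
        BigKind.uni q hF (conj hF) (Cfsg.hermForm n F q) (isUnitaryForm_herm hF) ?_ inf_le_right ?_ nq ns,
        hasFilt_uni hF h3 m⟩
    · rintro _ ⟨g, hg, rfl⟩ u v
      exact hg.1 u v
    · rw [Fintype.card_fin]
      exact ho m hF hn
  · exact h12 hs h m hF h3 hn e1 e2 hres

theorem orthRes_of (h12 : OrthRes12) (ho : OrdOrth) (hb : BigTarget) : OrthRes := by
  intro Q _ _ hs A Γ h F _ _ ι _ _ Qf m h7 hQ hres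
  rcases Nat.lt_or_ge 12 (Fintype.card ι) with hn | hn
  · obtain ⟨P, hP, nu⟩ := hres
    exact hb (Q := Q) (A := A) (Γ := Γ) (S := Cfsg.Geo.omegaGL Qf) (P := P)
      ⟨m, hs, h, hn, hP, BigKind.orth Qf hQ rfl (ho m hn hQ) nu, hasFilt_orth hQ h7 m⟩
  · exact h12 hs h m h7 hn hQ hres

end Cfsg.Agent.H419.EP
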