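import Cfsg.Agent.H588.EPU.Asm
import Cfsg.Agent.H29.EP.SUK
import Cfsg.Agent.H380.EPU.CTwoA
import Cfsg.Agent.H380.EPU.CTwoB
import Cfsg.Agent.H511.EP.SUC5
import Cfsg.Agent.H932.EP.C6
import Cfsg.Agent.H558.EPU.Main
import Cfsg.Agent.H25.EPU.CFour
import Cfsg.Agent.H25.EPU.CSeven

/-!
# S3499: `PsuNonRes` (helper419)
-/

set_option autoImplicit false

namespace Cfsg.Agent.H419.EP

open Cfsg.Agent.H588.EPU

theorem kills_C5a : Kills C5a := fun _ _ _ he _ _ _ _ _ m hF hn _ _ _ hM hle =>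
  Cfsg.Agent.H511.EP.su_C5 he m hF hn (Or.inl hM) hle

theorem kills_C5b : Kills C5b := fun _ _ _ he _ _ _ _ _ m hF hn _ _ _ hM hle =>
  Cfsg.Agent.H511.EP.su_C5 he m hF hn (Or.inr (Or.inl hM)) hle

theorem kills_C5c : Kills C5c := fun _ _ _ he _ _ _ _ _ m hF hn _ _ _ hM hle =>
  Cfsg.Agent.H511.EP.su_C5 he m hF hn (Or.inr (Or.inr hM)) hle

theorem kills_C6 : Kills C6 := fun _ _ _ he _ _ _ _ _ m hF hn h32 _ _ hM hle =>
  Cfsg.Agent.H932.EP.su_c6 he m hF hn h32 hM hle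

/-- **target 5 of 8** -/
theorem psuNonRes : PsuNonRes :=
  Cfsg.Agent.H588.EPU.psuNonRes Cfsg.Agent.H29.EP.SU.kills_C1a Cfsg.Agent.H29.EP.SU.kills_C1b Cfsg.Agent.H380.EPU.c2a Cfsg.Agent.H380.EPU.c2b kills_C5a kills_C5b kills_C5c kills_C6 kills_C3
    Cfsg.Agent.H25.EPU.kills_C4 Cfsg.Agent.H25.EPU.kills_C7

end Cfsg.Agent.H419.EP
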